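import Cfsg.Agent.H5.Ru.Fin
import Cfsg.Agent.KFacts.Ru.InvA
import Cfsg.Agent.Lib.NormalAbelian

/-!
# Elementary abelian normal subgroups of a Sylow 2-subgroup (Rudvalis configuration; helper5)

`Ctx D 𝒵 P Z z`: local data, `P` a 2-subgroup of order `2^14` in `N(Z) ∩ C(z)` with `Z(P) = ⟨z⟩`; `Inv P z U`: `U ≤ P` is
elementary abelian, normal in `P`, `z ∈ U`.

* `Inv.noD`: `U ∩ D = ∅`; `Inv.le_cent`: `U ≤ C(Z)`, `|U Z / Z| ≤ 4`;
* `Inv.normalizer_le`: `N(U) ≤ N(Z)` or `N(U) ≤ C(z)`.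
-/

set_option autoImplicit false
set_option linter.unusedSectionVars false

namespace Cfsg.Agent.H5.Ru.Loc

open Subgroup Cfsg.Agent.Ru127.Form Cfsg.Agent.Ru127.Basic Cfsg.Agent.Ru127.NorD Cfsg.Agent.Ru127.Count
  Cfsg.Agent.Ru127.Five Cfsg.Agent.Ru127.Xi Cfsg.Agent.Ru127.Inst Cfsg.Agent.RuB Cfsg.Agent.KFacts.Ru.InvA

variable {G : Type*} [Group G]

/-- an element of `B \ A` centralised by the 2-group `P` modulo `A` -/
theorem exists_central_mod [Finite G] {P A B : Subgroup G} (hP : IsPGroup 2 P) (hBP : B ≤ P)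
    (hA : P ≤ normalizer (A : Set G)) (hB : P ≤ normalizer (B : Set G)) (hAP : A ≤ P) (hne : ¬ B ≤ A) :
    ∃ d ∈ B, d ∉ A ∧ ∀ t ∈ P, t * d * t⁻¹ * d⁻¹ ∈ A := by
  have : Fact (Nat.Prime 2) := ⟨Nat.prime_two⟩
  set A' : Subgroup P := A.subgroupOf P with hA'
  have hAn : A'.Normal := (normal_subgroupOf_iff_le_normalizer hAP).2 hA
  have hBn : (B.subgroupOf P).Normal := (normal_subgroupOf_iff_le_normalizer hBP).2 hB
  set π := QuotientGroup.mk' A' with hπ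
  have hπs : Function.Surjective π := QuotientGroup.mk'_surjective A'
  have hN : ((B.subgroupOf P).map π).Normal := hBn.map π hπs
  have hnil : Group.IsNilpotent (P ⧸ A') := by
    have h1 : IsPGroup 2 (P ⧸ A') := hP.to_quotient A'
    exact h1.isNilpotent
  have hNe : (B.subgroupOf P).map π ≠ ⊥ := by
    intro h
    apply hne
    intro b hb
    have h1 : π ⟨b, hBP hb⟩ ∈ (B.subgroupOf P).map π := ⟨⟨b, hBP hb⟩, mem_subgroupOf.2 hb, rfl⟩
    rw [h, mem_bot, hπ, QuotientGroup.mk'_apply, QuotientGroup.eq_one_iff] at h1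
    exact mem_subgroupOf.1 h1
  obtain ⟨⟨y, hyN, hyc⟩, hy1⟩ := (Subgroup.ne_bot_iff_exists_ne_one).1
    (Lib.NormalAbelian.normal_inf_center_ne_bot _ hNe)
  obtain ⟨⟨d, hdP⟩, hdB, hdy⟩ := hyN
  refine ⟨d, hdB, ?_, ?_⟩
  · intro hdA
    apply hy1
    apply Subtype.ext
    show y = 1
    have hdy' : π ⟨d, hdP⟩ = y := hdy
    rw [← hdy', hπ, QuotientGroup.mk'_apply, QuotientGroup.eq_one_iff]
    exact mem_subgroupOf.2 hdA
  · intro t ht
    have h1 := mem_center_iff.1 hyc (π ⟨t, ht⟩)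
    have hdy' : π ⟨d, hdP⟩ = y := hdy
    rw [← hdy'] at h1
    have h2 : π (⟨t, ht⟩ * ⟨d, hdP⟩ * ⟨t, ht⟩⁻¹ * ⟨d, hdP⟩⁻¹) = 1 := by
      rw [map_mul, map_mul, map_mul, map_inv, map_inv, h1, mul_inv_cancel_right, mul_inv_cancel]
    rw [hπ, QuotientGroup.mk'_apply, QuotientGroup.eq_one_iff] at h2
    exact mem_subgroupOf.1 h2

variable {D : Set G} {𝒵 : Set (Subgroup G)}

/-- the hypotheses on the 2-subgroup `P` -/
structure Ctx (D : Set G) (𝒵 : Set (Subgroup G)) (P Z : Subgroup G) (z : G) : Prop where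
  L : LocalData D 𝒵 R8
  h5 : ∀ Y ∈ 𝒵, ∀ z ∈ Y, z ≠ 1 → Nat.card (Sig 𝒵 z) = 5
  P2 : IsPGroup 2 P
  hP : Nat.card P = 2 ^ 14
  hZ : Z ∈ 𝒵
  hz : z ∈ Z
  hz1 : z ≠ 1
  comm : ∀ x ∈ P, x * z = z * x
  cent : centralizer (Z : Set G) ≤ P
  nr : ∀ x ∈ P, x ∈ nor Z
  cen : ∀ a, (∀ x ∈ P, x * a = a * x) → a = 1 ∨ a = z

/-- elementary abelian normal subgroups of `P` containing `z` -/
structure Inv (P : Subgroup G) (z : G) (U : Subgroup G) : Prop where
  le : U ≤ P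
  norm : P ≤ normalizer (U : Set G)
  comm : ∀ a ∈ U, ∀ b ∈ U, a * b = b * a
  sq : ∀ a ∈ U, a * a = 1
  mem : z ∈ U

theorem conj_mem {N U : Subgroup G} (h : N ≤ normalizer (U : Set G)) {t u : G} (ht : t ∈ N) (hu : u ∈ U) :
    t * u * t⁻¹ ∈ U := (mem_normalizer_iff.1 (h ht) u).1 hu

theorem nor_le_normalizer {Y : Subgroup G} : nor Y ≤ normalizer (Y : Set G) := by
  intro g hg
  rw [mem_normalizer_iff]
  intro x
  refine ⟨fun h => conj_mem_of_mem_nor hg h, fun h => ?_⟩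
  have h1 := conj_inv_mem_of_mem_nor hg h
  have e : g⁻¹ * (g * x * g⁻¹) * g = x := by group
  rwa [e] at h1

theorem mem_nor_of_mem_normalizer {Y : Subgroup G} {g : G} (hg : g ∈ normalizer (Y : Set G)) : g ∈ nor Y := by
  rw [mem_nor]
  ext x
  rw [mem_cj, mem_normalizer_iff.1 hg]
  have e : g * (g⁻¹ * x * g) * g⁻¹ = x := by group
  rw [e]

section

variable [Finite G] {P Z U : Subgroup G} {z : G} (c : Ctx D 𝒵 P Z z)
include c

theorem Ctx.Z_le : Z ≤ centralizer (Z : Set G) := by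
  obtain ⟨π, ζ, cc⟩ := c.L.coord Z c.hZ
  exact cc.le_cent

theorem Ctx.card_cent : Nat.card (centralizer (Z : Set G)) = 2 ^ 11 := by
  obtain ⟨π, ζ, cc⟩ := c.L.coord Z c.hZ
  exact Cfsg.Agent.Ru127.Basic.card_cent cc

theorem Ctx.zD : z ∉ D := notD_mem c.L c.hZ c.hz

/-- `P` fixes only `Z` in `Σ(z)` -/
theorem Ctx.eq_of_nor {Y : Subgroup G} (hY : Y ∈ 𝒵) (hzY : z ∈ Y) (h : ∀ t ∈ P, t ∈ nor Y) : Y = Z := by
  obtain ⟨d0, hd0, hd0Z⟩ := exists_D c.L c.hZ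
  exact fix_unique c.L hd0 c.hz1 hY hzY c.hZ c.hz (h _ (c.cent hd0Z)) (cent_le_nor Z hd0Z)

/-- `[P, d] ≤ Z` is impossible for `d ∈ D ∩ C(Z)` -/
theorem Ctx.not_central {d : G} (hd : d ∈ D) (hdc : d ∈ centralizer (Z : Set G))
    (h : ∀ t ∈ P, t * d * t⁻¹ * d⁻¹ ∈ Z) : False := by
  obtain ⟨π, ζ, cc⟩ := c.L.coord Z c.hZ
  have hle : P ≤ centralizer (Z : Set G) := by
    intro t ht
    obtain ⟨f, hf⟩ := (cc.ζ_range _).1 (h t ht)
    have hπd : π d ≠ 0 := ((cc.D_iff d hdc).1 hd).1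
    obtain ⟨w, hw⟩ := R8.q1 (π d) hπd f
    obtain ⟨x, hx, rfl⟩ := cc.π_surj w
    -- `d⁻¹ x⁻¹ d x = ζ f = t d t⁻¹ d⁻¹`
    have h1 := cc.comm d hdc x hx
    rw [hw, hf] at h1
    have hd2 : d⁻¹ = d := inv_eq_self c.L hd
    have hz' : t * d * t⁻¹ * d⁻¹ ∈ Z := h t ht
    have hcd : d * (t * d * t⁻¹ * d⁻¹) = (t * d * t⁻¹ * d⁻¹) * d :=
      ((mem_centralizer_iff.1 hdc) _ hz').symm
    have h2 : x⁻¹ * d * x = t * d * t⁻¹ := by
      calc x⁻¹ * d * x = d * (d⁻¹ * x⁻¹ * d * x) := by group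
        _ = d * (t * d * t⁻¹ * d⁻¹) := by rw [h1]
        _ = t * d * t⁻¹ := by rw [hcd]; group
    have h3 : Commute (x * t) d := by
      show x * t * d = d * (x * t)
      calc x * t * d = x * (t * d * t⁻¹) * t := by group
        _ = x * (x⁻¹ * d * x) * t := by rw [h2]
        _ = d * (x * t) := by group
    have h4 : Commute (x * t) z := c.comm _ (mul_mem (c.cent hx) ht)
    have h5 := cent_of_commute c.L hd c.hz1 c.hZ c.hz hdc h3 h4
    have h6 := mul_mem (inv_mem hx) h5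
    rwa [inv_mul_cancel_left] at h6
  have h1 := Nat.card_le_card_of_injective _ (inclusion_injective hle)
  rw [c.card_cent, c.hP] at h1
  norm_num at h1

/-- **`U ∩ D = ∅`** -/
theorem Inv.noD (hU : Inv P z U) : ∀ d ∈ U, d ∉ D := by
  intro d hdU hd
  obtain ⟨Y, hY, hzY, hdY, hcent⟩ := exists_unique' c.L hd c.hz1 (sq_mem c.L c.hZ c.hz) c.zD (c.comm d (hU.le hdU))
  have hUY : ∀ u ∈ U, u ∈ centralizer (Y : Set G) := fun u hu =>
    hcent u (hU.comm u hu d hdU) (c.comm u (hU.le hu))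
  have hYZ : Y = Z := by
    refine c.eq_of_nor hY hzY fun t ht => ?_
    have h1 : t * d * t⁻¹ ∈ U := conj_mem hU.norm ht hdU
    have h2 : t * d * t⁻¹ ∈ centralizer ((cj t Y : Subgroup G) : Set G) := by
      rw [mem_centralizer_iff]
      intro y hy
      have h3 := mem_centralizer_iff.1 hdY _ (mem_cj.1 hy)
      calc y * (t * d * t⁻¹) = t * ((t⁻¹ * y * t) * d) * t⁻¹ := by group
        _ = t * (d * (t⁻¹ * y * t)) * t⁻¹ := by rw [h3]
        _ = t * d * t⁻¹ * y := by group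
    exact (unique c.L (c.L.D_conj _ hd t) c.hz1 hY (c.L.Z_conj _ hY t) hzY
      (mem_cj_of_commute (c.comm t ht) hzY) (hUY _ h1) h2).symm
  subst hYZ
  -- a vector fixed modulo `Z`
  have hne : ¬ U ≤ Y := fun h => notD_mem c.L c.hZ (h hdU) hd
  obtain ⟨e, heU, heZ, he⟩ := exists_central_mod c.P2 hU.le (fun t ht => nor_le_normalizer (c.nr t ht)) hU.norm
    (c.Z_le.trans c.cent) hne
  have heD : e ∈ D := by
    by_contra h
    obtain ⟨π, ζ, cc⟩ := c.L.coord Y c.hZ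
    exact heZ (mem_Y_of_commute cc hd hdY (hUY e heU) (hU.sq e heU) h (hU.comm d hdU e heU))
  exact c.not_central heD (hUY e heU) he

variable {π : G → W8} {ζ : K8 → G} (cc : IsCoord D Z R8 π ζ)

omit [Finite G] c in
/-- the image of `U ∩ C(Z)` in `C(Z)/Z` -/
def im (cc : IsCoord D Z R8 π ζ) (U : Subgroup G) : AddSubgroup W8 where
  carrier := {w | ∃ x ∈ U, x ∈ centralizer (Z : Set G) ∧ π x = w}
  add_mem' := by
    rintro _ _ ⟨x, hx, hxc, rfl⟩ ⟨y, hy, hyc, rfl⟩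
    exact ⟨x * y, mul_mem hx hy, mul_mem hxc hyc, cc.π_mul x hxc y hyc⟩
  zero_mem' := ⟨1, one_mem _, one_mem _, π_one cc⟩
  neg_mem' := by
    rintro _ ⟨x, hx, hxc, rfl⟩
    refine ⟨x, hx, hxc, ?_⟩
    rw [eq_neg_iff_add_eq_zero]
    exact R8.twoW _

omit [Finite G] c in
theorem mem_im {w : W8} : w ∈ im cc U ↔ ∃ x ∈ U, x ∈ centralizer (Z : Set G) ∧ π x = w := Iff.rfl

theorem Inv.card_im_le (hU : Inv P z U) : Nat.card (im cc U) ≤ 4 := by
  refine Fin.card_le_four _ ?_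
  rintro _ ⟨x, hx, hxc, rfl⟩ h0
  refine ⟨q_of_sq cc hxc (hU.sq x hx), fun h => ?_⟩
  exact hU.noD c x hx ((cc.D_iff x hxc).2 ⟨h0, h⟩)

/-- **`U ≤ C(Z)`** -/
theorem Inv.le_cent (hU : Inv P z U) : U ≤ centralizer (Z : Set G) := by
  obtain ⟨π, ζ, cc⟩ := c.L.coord Z c.hZ
  intro u hu
  by_contra huZ
  have hun : u ∈ nor Z := c.nr u (hU.le hu)
  obtain ⟨A, hA⟩ := exists_induced cc hun
  let A1 : W8 →+ W8 := A + AddMonoidHom.id W8
  have hA1 : ∀ w, A1 w = A w + w := fun w => rfl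
  have hFW : Finite W8 := Nat.finite_of_card_ne_zero (by rw [cardW]; norm_num)
  have hrange : A1.range ≤ im cc U := by
    rintro _ ⟨w, rfl⟩
    obtain ⟨x, hx, rfl⟩ := cc.π_surj w
    have h1 : u * x * u⁻¹ ∈ centralizer (Z : Set G) := conj_mem_cent hun hx
    refine ⟨u * x * u⁻¹ * x⁻¹, ?_, mul_mem h1 (inv_mem hx), ?_⟩
    · have h2 : x * u⁻¹ * x⁻¹ ∈ U := conj_mem hU.norm (c.cent hx) (inv_mem hu)
      have e : u * x * u⁻¹ * x⁻¹ = u * (x * u⁻¹ * x⁻¹) := by group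
      rw [e]
      exact mul_mem hu h2
    · rw [cc.π_mul _ h1 _ (inv_mem hx), π_inv cc hx, hA x hx, hA1]
  let Su : AddSubgroup K8 :=
    { carrier := {f | u * ζ f * u⁻¹ = ζ f}
      add_mem' := by
        intro a b ha hb
        show u * ζ (a + b) * u⁻¹ = ζ (a + b)
        have ha' : u * ζ a * u⁻¹ = ζ a := ha
        have hb' : u * ζ b * u⁻¹ = ζ b := hb
        rw [cc.ζ_add]
        calc u * (ζ a * ζ b) * u⁻¹ = (u * ζ a * u⁻¹) * (u * ζ b * u⁻¹) := by group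
          _ = ζ a * ζ b := by rw [ha', hb']
      zero_mem' := by
        show u * ζ 0 * u⁻¹ = ζ 0
        rw [ζ_zero cc]; group
      neg_mem' := by
        intro a ha
        have : -a = a := by rw [neg_eq_iff_add_eq_zero]; exact R8.twoF a
        rw [this]; exact ha }
  have hSu : Su ≠ ⊤ := by
    intro h
    apply huZ
    rw [mem_centralizer_iff]
    intro y hy
    obtain ⟨f, rfl⟩ := (cc.ζ_range y).1 hy
    have h1 : f ∈ Su := by rw [h]; trivial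
    have h2 : u * ζ f * u⁻¹ = ζ f := h1
    calc ζ f * u = (u * ζ f * u⁻¹) * u := by rw [h2]
      _ = u * ζ f := by group
  have hker : Nat.card A1.ker ≤ 16 := by
    refine Cfsg.Agent.Ru127.Iso.card_le_16 R8 Su hSu A1.ker ?_
    intro w hw
    obtain ⟨x, hx, rfl⟩ := cc.π_surj w
    rw [AddMonoidHom.mem_ker, hA1, ← hA x hx] at hw
    have h1 : u * x * u⁻¹ ∈ centralizer (Z : Set G) := conj_mem_cent hun hx
    have hy : x⁻¹ * (u * x * u⁻¹) ∈ Z := by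
      rw [← cc.π_ker _ (mul_mem (inv_mem hx) h1), cc.π_mul _ (inv_mem hx) _ h1, π_inv cc hx, add_comm]
      exact hw
    set y := x⁻¹ * (u * x * u⁻¹) with hydef
    have hxy : u * x * u⁻¹ = x * y := by rw [hydef]; group
    have hyx : y * x = x * y := (mem_centralizer_iff.1 hx) y hy
    have hyy : y * y = 1 := sq_mem c.L c.hZ hy
    show u * ζ (R8.q (π x)) * u⁻¹ = ζ (R8.q (π x))
    rw [← cc.sq x hx]
    calc u * (x * x) * u⁻¹ = (u * x * u⁻¹) * (u * x * u⁻¹) := by group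
      _ = x * y * (x * y) := by rw [hxy]
      _ = x * (y * x) * y := by group
      _ = x * x * (y * y) := by rw [hyx]; group
      _ = x * x := by rw [hyy, mul_one]
  have h1 : Nat.card A1.ker * Nat.card A1.range = 256 := by
    rw [← AddSubgroup.index_ker, AddSubgroup.card_mul_index, cardW]
  have h2 : Nat.card A1.range ≤ 4 :=
    (Nat.card_le_card_of_injective _ (AddSubgroup.inclusion_injective hrange)).trans (hU.card_im_le c cc)
  have h3 := Nat.mul_le_mul hker h2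
  omega

omit c in
/-- `|V| = |π(V)| |V ∩ Z|` for `V ≤ C(Z)` -/
theorem card_im {V : Subgroup G} (hV : V ≤ centralizer (Z : Set G)) :
    Nat.card V = Nat.card (im cc V) * Nat.card (V ⊓ Z : Subgroup G) := by
  let φ : V →* Multiplicative W8 :=
    { toFun := fun x => Multiplicative.ofAdd (π x)
      map_one' := by
        show Multiplicative.ofAdd (π 1) = 1
        rw [π_one cc]; rfl
      map_mul' := fun x y => by
        show Multiplicative.ofAdd (π (x * y)) = _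
        rw [cc.π_mul x (hV x.2) y (hV y.2)]; rfl }
  have h1 := φ.ker.card_mul_index
  rw [Subgroup.index_ker] at h1
  have h2 : Nat.card φ.range = Nat.card (im cc V) := by
    apply Nat.card_congr
    refine Equiv.ofBijective (fun w => ⟨Multiplicative.toAdd w.1, ?_⟩) ⟨?_, ?_⟩
    · obtain ⟨_, x, rfl⟩ := w
      exact ⟨x, x.2, hV x.2, rfl⟩
    · intro w w' h
      have h' := Subtype.mk.inj h
      exact Subtype.ext h'
    · rintro ⟨_, x, hx, hxc, rfl⟩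
      exact ⟨⟨_, ⟨x, hx⟩, rfl⟩, rfl⟩
  have h3 : Nat.card φ.ker = Nat.card (V ⊓ Z : Subgroup G) := by
    apply Nat.card_congr
    refine Equiv.ofBijective (fun x => ⟨(x.1 : G), x.1.2, ?_⟩) ⟨?_, ?_⟩
    · exact (cc.π_ker _ (hV x.1.2)).1 (MonoidHom.mem_ker.1 x.2)
    · intro x y h
      have h' := Subtype.mk.inj h
      exact Subtype.ext (Subtype.ext h')
    · rintro ⟨x, hx, hxZ⟩
      exact ⟨⟨⟨x, hx⟩, MonoidHom.mem_ker.2 ((cc.π_ker _ (hV hx)).2 hxZ)⟩, rfl⟩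
  rw [← h1, h2, h3, mul_comm]

/-- `U ≤ Z` or `Z ≤ U` -/
theorem Inv.cases (hU : Inv P z U) : U ≤ Z ∨ Z ≤ U := by
  by_cases h : U ≤ Z
  · exact Or.inl h
  right
  obtain ⟨π, ζ, cc⟩ := c.L.coord Z c.hZ
  obtain ⟨u, hu, huZ⟩ := SetLike.not_le_iff_exists.1 h
  have huc := hU.le_cent c hu
  have hπ : π u ≠ 0 := fun h0 => huZ ((cc.π_ker u huc).1 h0)
  intro y hy
  obtain ⟨f, rfl⟩ := (cc.ζ_range y).1 hy
  obtain ⟨w, hw⟩ := R8.q1 (π u) hπ f
  obtain ⟨x, hx, rfl⟩ := cc.π_surj w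
  rw [← hw, ← cc.comm u huc x hx]
  have h1 : x⁻¹ * u * x⁻¹⁻¹ ∈ U := conj_mem hU.norm (inv_mem (c.cent hx)) hu
  have e : u⁻¹ * x⁻¹ * u * x = u⁻¹ * (x⁻¹ * u * x⁻¹⁻¹) := by group
  rw [e]
  exact mul_mem (inv_mem hu) h1

omit [Finite G] in
theorem Inv.ne_one_of (hU : Inv P z U) {g : G} (hg : g ∈ normalizer (U : Set G)) : g * z * g⁻¹ ∈ U ∧ g * z * g⁻¹ ≠ 1 := by
  refine ⟨(mem_normalizer_iff.1 hg z).1 hU.mem, fun h => c.hz1 ?_⟩
  calc z = g⁻¹ * (g * z * g⁻¹) * g := by group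
    _ = 1 := by rw [h]; group

/-- the case `U ≤ Z` -/
theorem Inv.normalizer_le_of_le (hU : Inv P z U) (h : U ≤ Z) :
    normalizer (U : Set G) ≤ nor Z ∨ normalizer (U : Set G) ≤ centralizer {z} := by
  by_cases hj : ∀ j ∈ U, j = 1 ∨ j = z
  · right
    intro g hg
    obtain ⟨h1, h2⟩ := hU.ne_one_of c hg
    rw [mem_centralizer_singleton_iff]
    exact mul_inv_eq_iff_eq_mul.1 ((hj _ h1).resolve_left h2)
  · left
    push Not at hj
    obtain ⟨j, hj, hj1, hjz⟩ := hj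
    intro g hg
    have h1 : ∀ u ∈ U, u ∈ cj g Z := by
      intro u hu
      rw [mem_cj]
      apply h
      have h2 := (mem_normalizer_iff.1 (inv_mem hg) u).1 hu
      rwa [inv_inv] at h2
    rw [mem_nor]
    exact eq_of_mem c.L c.hz1 (c.L.Z_conj _ c.hZ g) (h1 z hU.mem) c.hZ c.hz (h1 j hj) (h hj) hj1 hjz

omit c in
/-- `u ~ u y` in `C(a)` for `u ∈ b`, `y ∈ a`, `a ≠ b` in `Σ(z)` -/
theorem conj_mul (L : LocalData D 𝒵 R8) (hz1 : z ≠ 1) {a b : Subgroup G} (ha : a ∈ 𝒵) (hza : z ∈ a) (hb : b ∈ 𝒵)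
    (hzb : z ∈ b) (hab : b ≠ a) {u y : G} (hu : u ∈ b) (hu1 : u ≠ 1) (huz : u ≠ z) (hy : y ∈ a) :
    ∃ g, Commute g z ∧ g * u * g⁻¹ = u * y := by
  obtain ⟨πa, ζa, ca⟩ := L.coord a ha
  have huc := le_cent_of_ne L hz1 hb hzb ha hza hab hu
  have hπ : πa u ≠ 0 := by
    intro h
    rcases inf_eq L hz1 hb hzb ha hza hab hu ((ca.π_ker u huc).1 h) with h | h
    · exact hu1 h
    · exact huz h
  obtain ⟨f, rfl⟩ := (ca.ζ_range y).1 hy
  obtain ⟨w, hw⟩ := R8.q1 (πa u) hπ f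
  obtain ⟨x, hx, rfl⟩ := ca.π_surj w
  have h1 := ca.comm u huc x hx
  rw [hw] at h1
  refine ⟨x⁻¹, ?_, ?_⟩
  · exact ((mem_centralizer_iff.1 (inv_mem hx)) z hza).symm
  · rw [← h1]; group

omit c in
/-- `C(z)` is transitive on the union of the members of `Σ(z)` minus `⟨z⟩` -/
theorem trans_pts (L : LocalData D 𝒵 R8) (hz1 : z ≠ 1) (h5 : Nat.card (Sig 𝒵 z) = 5) {b b' : Subgroup G} (hb : b ∈ 𝒵)
    (hzb : z ∈ b) (hb' : b' ∈ 𝒵) (hzb' : z ∈ b') {u u' : G} (hu : u ∈ b) (hu1 : u ≠ 1) (huz : u ≠ z)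
    (hu' : u' ∈ b') (hu1' : u' ≠ 1) (huz' : u' ≠ z) : ∃ g, Commute g z ∧ g * u * g⁻¹ = u' := by
  classical
  -- a third member
  obtain ⟨b2, hb2, hzb2, hn, hn'⟩ : ∃ b2 ∈ 𝒵, z ∈ b2 ∧ b2 ≠ b ∧ b2 ≠ b' := by
    by_contra hcon
    push Not at hcon
    have hsub : ∀ Y : Sig 𝒵 z, Y = ⟨b, hb, hzb⟩ ∨ Y = ⟨b', hb', hzb'⟩ := by
      rintro ⟨Y, hY, hzY⟩
      by_cases h : Y = b
      · left; exact Subtype.ext h
      · right; exact Subtype.ext (hcon Y hY hzY h)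
    have h1 : Nat.card (Sig 𝒵 z) ≤ Nat.card (Fin 2) := by
      refine Nat.card_le_card_of_surjective (fun i : Fin 2 => if i = 0 then (⟨b, hb, hzb⟩ : Sig 𝒵 z) else
        ⟨b', hb', hzb'⟩) ?_
      intro Y
      rcases hsub Y with h | h
      · exact ⟨0, by simp [h]⟩
      · exact ⟨1, by simp [h]⟩
    rw [h5, Nat.card_eq_fintype_card, Fintype.card_fin] at h1
    omega
  obtain ⟨v, hv, hvn⟩ := exists_notMem (card_mem L hb2) (s := {1, z})
    ((Finset.card_insert_le _ _).trans (by simp))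
  simp only [Finset.mem_insert, Finset.mem_singleton, not_or] at hvn
  have key : ∀ {b : Subgroup G} (_ : b ∈ 𝒵) (_ : z ∈ b) (_ : b2 ≠ b) {u : G} (_ : u ∈ b) (_ : u ≠ 1) (_ : u ≠ z),
      ∃ g, Commute g z ∧ g * u * g⁻¹ = v := by
    intro b hb hzb hn u hu hu1 huz
    obtain ⟨a, ha, hza, hua⟩ := exists_mul L hz1 h5 hb hzb hb2 hzb2 (inv_mem hu) hv
    have hba : b ≠ a := by
      rintro rfl
      have h1 : v ∈ b := by
        have h2 := mul_mem hu hua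
        rwa [mul_inv_cancel_left] at h2
      exact hn (eq_of_mem L hz1 hb2 hzb2 hb hzb hv h1 hvn.1 hvn.2)
    obtain ⟨g, hg, h⟩ := conj_mul L hz1 ha hza hb hzb hba hu hu1 huz hua
    exact ⟨g, hg, by rw [h, mul_inv_cancel_left]⟩
  obtain ⟨g, hg, hgu⟩ := key hb hzb hn hu hu1 huz
  obtain ⟨g', hg', hgu'⟩ := key hb' hzb' hn' hu' hu1' huz'
  refine ⟨g'⁻¹ * g, ?_, ?_⟩
  · exact (hg'.inv_left).mul_left hg
  · calc g'⁻¹ * g * u * (g'⁻¹ * g)⁻¹ = g'⁻¹ * (g * u * g⁻¹) * g' := by group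
      _ = g'⁻¹ * (g' * u' * g'⁻¹) * g' := by rw [hgu, hgu']
      _ = u' := by group

/-- the order of `U ≥ Z` -/
theorem Inv.card_le (hU : Inv P z U) (h : Z ≤ U) : Nat.card U = Nat.card (im cc U) * 8 := by
  rw [card_im cc (hU.le_cent c), inf_eq_right.2 h, card_mem c.L c.hZ]

/-- the case of a conjugate of `Z` different from `Z` in `U` -/
theorem Inv.of_ne (hU : Inv P z U) (h : Z ≤ U) {Y : Subgroup G} (hY : Y ∈ 𝒵) (hYU : Y ≤ U) (hne : Y ≠ Z) :
    Nat.card U = 32 ∧ (∀ u ∈ U, ∃ b ∈ 𝒵, z ∈ b ∧ u ∈ b) ∧ (∀ b ∈ 𝒵, z ∈ b → b ≤ U) := by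
  obtain ⟨π, ζ, cc⟩ := c.L.coord Z c.hZ
  have hFW : Finite W8 := Nat.finite_of_card_ne_zero (by rw [cardW]; norm_num)
  have hUc := hU.le_cent c
  have hYc : Y ≤ centralizer (Z : Set G) := hYU.trans hUc
  have h4 := hU.card_im_le c cc
  have hYe := card_im cc hYc
  rw [card_mem c.L hY] at hYe
  have himle : im cc Y ≤ im cc U := by
    rintro _ ⟨x, hx, hxc, rfl⟩
    exact ⟨x, hYU hx, hxc, rfl⟩
  have hYU4 : Nat.card (im cc Y) ≤ Nat.card (im cc U) :=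
    Nat.card_le_card_of_injective _ (AddSubgroup.inclusion_injective himle)
  -- an element of `Y ∩ Z`
  obtain ⟨y0, hy0Y, hy0Z, hy01⟩ : ∃ y0 ∈ Y, y0 ∈ Z ∧ y0 ≠ 1 := by
    by_contra hcon
    push Not at hcon
    have h1 : (Y ⊓ Z : Subgroup G) = ⊥ := by
      rw [eq_bot_iff]
      intro x hx
      exact mem_bot.2 (hcon x hx.1 hx.2)
    rw [h1, card_bot, mul_one] at hYe
    omega
  have hinf2 : Nat.card (Y ⊓ Z : Subgroup G) ≤ 2 := by
    have h1 : ((Y ⊓ Z : Subgroup G) : Set G) ⊆ {1, y0} := by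
      intro x hx
      exact inf_eq c.L hy01 hY hy0Y c.hZ hy0Z hne hx.1 hx.2
    have h2 := Set.ncard_le_ncard h1 (Set.toFinite _)
    have h3 := Set.ncard_insert_le (1 : G) {y0}
    rw [Set.ncard_singleton] at h3
    have h5 : Nat.card (Y ⊓ Z : Subgroup G) = ((Y ⊓ Z : Subgroup G) : Set G).ncard := rfl
    omega
  have himY : Nat.card (im cc Y) = 4 := by
    have h1 : Nat.card (im cc Y) * Nat.card (Y ⊓ Z : Subgroup G) ≤ Nat.card (im cc Y) * 2 :=
      Nat.mul_le_mul_left _ hinf2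
    omega
  have himU : Nat.card (im cc U) = 4 := by omega
  have hYeq : im cc Y = im cc U := AddSubgroup.eq_of_le_of_card_ge himle (by omega)
  -- the form of the vectors
  obtain ⟨f, hf⟩ := (cc.ζ_range y0).1 hy0Z
  have hf0 : f ≠ 0 := by
    rintro rfl
    rw [ζ_zero cc] at hf
    exact hy01 hf.symm
  have hJY : ∀ w ∈ im cc U, w ≠ 0 → w ∈ J3 R8 f := by
    intro w hw hw0
    rw [← hYeq] at hw
    obtain ⟨j, hj, hjc, rfl⟩ := hw
    refine mem_J3 c.L hy01 hY hy0Y c.hZ hy0Z hne cc hf hj ?_ ?_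
    · rintro rfl; exact hw0 (π_one cc)
    · rintro rfl; exact hw0 (π_Y cc hy0Z)
  -- `y0 = z`
  have hy0z : y0 = z := by
    have hne' : ¬ U ≤ Z := fun h' => hne (eq_of_le c.L hY c.hZ (hYU.trans h'))
    obtain ⟨d, hdU, hdZ, hd⟩ := exists_central_mod c.P2 hU.le (fun t ht => nor_le_normalizer (c.nr t ht)) hU.norm
      (c.Z_le.trans c.cent) hne'
    have hdc := hUc hdU
    have hd0 : π d ≠ 0 := fun h0 => hdZ ((cc.π_ker d hdc).1 h0)
    have hdJ := hJY (π d) ⟨d, hdU, hdc, rfl⟩ hd0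
    obtain ⟨b, hb, hy0b, hbZ, hdb⟩ := exists_of_J3 c.L hy01 (c.h5 Z c.hZ y0 hy0Z hy01) c.hZ hy0Z cc hf hdc hdJ
    refine (c.cen y0 ?_).resolve_left hy01
    intro t ht
    have htn := c.nr t ht
    have h1 : t * y0 * t⁻¹ ∈ Z := conj_mem_of_mem_nor htn hy0Z
    have h11 : t * y0 * t⁻¹ ≠ 1 := by
      intro h'
      apply hy01
      calc y0 = t⁻¹ * (t * y0 * t⁻¹) * t := by group
        _ = 1 := by rw [h']; group
    obtain ⟨f1, hf1⟩ := (cc.ζ_range _).1 h1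
    have hf10 : f1 ≠ 0 := by
      rintro rfl
      rw [ζ_zero cc] at hf1
      exact h11 hf1.symm
    have hcjb : cj t b ∈ 𝒵 := c.L.Z_conj _ hb t
    have hmem : ∀ x ∈ b, t * x * t⁻¹ ∈ cj t b := by
      intro x hx
      rw [mem_cj]
      have e : t⁻¹ * (t * x * t⁻¹) * t = x := by group
      rwa [e]
    have hcne : cj t b ≠ Z := by
      intro h'
      apply hbZ
      have h2 := congrArg (cj t⁻¹) h'
      rw [cj_inv_cj] at h2
      rw [h2, mem_nor.1 ((nor Z).inv_mem htn)]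
    have hdt : t * d * t⁻¹ ∈ U := conj_mem hU.norm ht hdU
    have hπt : π (t * d * t⁻¹) = π d := by
      have e : t * d * t⁻¹ = (t * d * t⁻¹ * d⁻¹) * d := by group
      rw [e, cc.π_mul _ (c.Z_le (hd t ht)) _ hdc, π_Y cc (hd t ht), zero_add]
    have hJ1 : π (t * d * t⁻¹) ∈ J3 R8 f1 := by
      refine mem_J3 c.L h11 hcjb (hmem _ hy0b) c.hZ h1 hcne cc hf1 (hmem _ hdb) ?_ ?_
      · intro h'
        rw [h', π_one cc] at hπt
        exact hd0 hπt.symm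
      · intro h'
        rw [h', π_Y cc h1] at hπt
        exact hd0 hπt.symm
    rw [hπt] at hJ1
    have hff := Fin.J3_disj hf0 hf10 hdJ hJ1
    rw [← hff, hf] at hf1
    calc t * y0 = (t * y0 * t⁻¹) * t := by group
      _ = y0 * t := by rw [← hf1]
  subst hy0z
  have hJeq : J3 R8 f = (im cc U : Set W8) \ {0} := by
    symm
    refine Set.eq_of_subset_of_ncard_le ?_ ?_ (Set.toFinite _)
    · intro w hw
      exact hJY w hw.1 hw.2
    · rw [Set.ncard_sdiff_singleton_of_mem (im cc U).zero_mem]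
      have h1 : ((im cc U : AddSubgroup W8) : Set W8).ncard = Nat.card (im cc U) := rfl
      have h2 : Nat.card (J3 R8 f) ≤ 3 := R8.q2 f hf0
      have h3 : (J3 R8 f).ncard = Nat.card (J3 R8 f) := rfl
      omega
  have h5 := c.h5 Z c.hZ y0 hy0Z hy01
  refine ⟨?_, ?_, ?_⟩
  · rw [hU.card_le c cc h, himU]
  · intro u hu
    by_cases hu0 : π u = 0
    · exact ⟨Z, c.hZ, hy0Z, (cc.π_ker u (hUc hu)).1 hu0⟩
    · obtain ⟨b, hb, hzb, -, hub⟩ := exists_of_J3 c.L hy01 h5 c.hZ hy0Z cc hf (hUc hu)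
        (hJY (π u) ⟨u, hu, hUc hu, rfl⟩ hu0)
      exact ⟨b, hb, hzb, hub⟩
  · intro b hb hzb
    by_cases hbZ : b = Z
    · rw [hbZ]; exact h
    intro j hj
    by_cases hj1 : j = 1
    · rw [hj1]; exact one_mem _
    by_cases hjz : j = y0
    · rw [hjz]; exact h hy0Z
    have hjc := le_cent_of_ne c.L hy01 hb hzb c.hZ hy0Z hbZ hj
    have h1 : π j ∈ J3 R8 f := mem_J3 c.L hy01 hb hzb c.hZ hy0Z hbZ cc hf hj hj1 hjz
    rw [hJeq] at h1
    obtain ⟨u, hu, huc, he⟩ := h1.1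
    have h2 : u⁻¹ * j ∈ Z := by
      rw [← cc.π_ker _ (mul_mem (inv_mem huc) hjc), cc.π_mul _ (inv_mem huc) _ hjc, π_inv cc huc, he]
      exact R8.twoW _
    have h3 := mul_mem hu (h h2)
    rwa [mul_inv_cancel_left] at h3

/-- **`N(U) ≤ N(Z)` or `N(U) ≤ C(z)`** -/
theorem Inv.normalizer_le (h31 : ¬ 31 ∣ Nat.card G) (hU : Inv P z U) :
    normalizer (U : Set G) ≤ nor Z ∨ normalizer (U : Set G) ≤ centralizer {z} := by
  rcases hU.cases c with h | h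
  · exact hU.normalizer_le_of_le c h
  by_cases hall : ∀ g ∈ normalizer (U : Set G), cj g Z = Z
  · exact Or.inl hall
  right
  push Not at hall
  obtain ⟨g0, hg0, hgne⟩ := hall
  have hcjU : cj g0 Z ≤ U := by
    intro x hx
    rw [mem_cj] at hx
    have h1 := (mem_normalizer_iff.1 hg0 _).1 (h hx)
    have e : g0 * (g0⁻¹ * x * g0) * g0⁻¹ = x := by group
    rwa [e] at h1
  obtain ⟨hcard, hall, hle⟩ := hU.of_ne c h (c.L.Z_conj _ c.hZ g0) hcjU hgne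
  have h5 := c.h5 Z c.hZ z c.hz c.hz1
  by_contra hcon
  obtain ⟨n, hn, hnz⟩ := SetLike.not_le_iff_exists.1 hcon
  -- `C(z) ≤ N(U)`
  have hCN : ∀ g, Commute g z → g ∈ normalizer (U : Set G) := by
    have key : ∀ g, Commute g z → ∀ u ∈ U, g * u * g⁻¹ ∈ U := by
      intro g hg u hu
      obtain ⟨b, hb, hzb, hub⟩ := hall u hu
      refine hle _ (c.L.Z_conj _ hb g) (mem_cj_of_commute hg hzb) ?_
      rw [mem_cj]
      have e : g⁻¹ * (g * u * g⁻¹) * g = u := by group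
      rwa [e]
    intro g hg
    rw [mem_normalizer_iff]
    intro u
    refine ⟨key g hg u, fun hu => ?_⟩
    have h1 := key g⁻¹ (hg.inv_left) _ hu
    have e : g⁻¹ * (g * u * g⁻¹) * g⁻¹⁻¹ = u := by group
    rwa [e] at h1
  obtain ⟨hm, hm1⟩ := hU.ne_one_of c hn
  have hmz : n * z * n⁻¹ ≠ z := by
    intro h'
    apply hnz
    rw [mem_centralizer_singleton_iff]
    exact mul_inv_eq_iff_eq_mul.1 h'
  obtain ⟨b, hb, hzb, hmb⟩ := hall _ hm
  -- the orbit of `z`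
  have horb := card_conj_mul (normalizer (U : Set G)) z
  have h31' : Nat.card {y : G // ∃ h ∈ normalizer (U : Set G), h * z * h⁻¹ = y} = 31 := by
    have h1 : Nat.card {y : G // ∃ h ∈ normalizer (U : Set G), h * z * h⁻¹ = y} =
        ((U : Set G) \ {1}).ncard := by
      apply Nat.card_congr
      refine Equiv.subtypeEquivRight (fun y => ?_)
      constructor
      · rintro ⟨g, hg, rfl⟩
        exact ⟨(hU.ne_one_of c hg).1, (hU.ne_one_of c hg).2⟩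
      · rintro ⟨hy, hy1⟩
        by_cases hyz : y = z
        · exact ⟨1, one_mem _, by rw [hyz]; group⟩
        · obtain ⟨b', hb', hzb', hyb'⟩ := hall y hy
          obtain ⟨g, hg, hgy⟩ := trans_pts c.L c.hz1 h5 hb hzb hb' hzb' hmb hm1 hmz hyb' hy1 hyz
          refine ⟨g * n, mul_mem (hCN g hg) hn, ?_⟩
          rw [← hgy]; group
    rw [h1, Set.ncard_sdiff_singleton_of_mem (one_mem U)]
    have h2 : (U : Set G).ncard = Nat.card U := rfl
    omega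
  rw [h31'] at horb
  exact h31 ((Dvd.intro _ horb).trans (card_subgroup_dvd_card _))

end

end Cfsg.Agent.H5.Ru.Loc
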